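import Mathlib
import Cfsg.Agent.H500.IF.SpConj
import Cfsg.Agent.LieClassical.HermPerfect
import Cfsg.Agent.S0245
import Cfsg.Agent.S0277
import Cfsg.Agent.S2148
import Cfsg.Agent.S2150

/-!
# S5719: `PSp_2m(q)`, `q ≡ 3 mod 4`, `m = 3, 4`, the elements `x² = -1` (helper353)

`K = F(i)`, `i² = -1` : `GU_m(K)` is the centraliser of `x` in `Sp_2m(F)`.
* `CM F K i` : the data; `psi : F^(2m) ≃ K^m`, `herm_psi`; `mkK T` : the symplectic element of a `K`-isometry;
* `kapG : GU_m(K) →* Sp_2m(F)`, `kapS : SU_m(K) →* Sp_2m(F)`; `xi` : multiplication by `i`;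
* `idx_su` : the indices of the proper subgroups of `SU_3`, `SU_4`;
* `kill_field`.
-/

set_option autoImplicit false
set_option linter.unusedSectionVars false

namespace Cfsg.Agent.H353.IF.SpField

open Cfsg Module
open Cfsg.Agent.LieClassical.HermBasic Cfsg.Agent.LieClassical.HermSiegel
open Cfsg.Agent.ClassicalGeometry.SympBasic
open Cfsg.Agent.ClassicalGeometry.SympSiegel (smul_def ofIso ofIso_smul ext_smul smul_smul' smul_neg')

/-- `K = F(i)` -/
structure CM (F K : Type*) [Field F] [Fintype F] [Field K] [Fintype K] [Algebra F K] (i : K) : Prop where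
  card : Fintype.card K = Fintype.card F ^ 2
  sq : i * i = -1
  ns : ¬ IsSquare (-1 : F)

section

variable {F K : Type*} [Field F] [Fintype F] [Field K] [Fintype K] [Algebra F K] {i : K} (h : CM F K i)

include h

theorem CM.mod4 : Fintype.card F % 4 = 3 := by
  by_contra hcon
  exact h.ns (FiniteField.isSquare_neg_one_iff.2 hcon)

theorem CM.odd : Odd (Fintype.card F) := by
  have := h.mod4
  exact Nat.odd_iff.2 (by omega)

theorem CM.zero {a b : F} (hab : algebraMap F K a + algebraMap F K b * i = 0) : a = 0 ∧ b = 0 := by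
  have hb : b = 0 := by
    by_contra hb
    apply h.ns
    refine ⟨a / b, ?_⟩
    apply (algebraMap F K).injective
    have hb' : algebraMap F K b ≠ 0 := (map_ne_zero _).2 hb
    rw [map_mul, map_div₀, map_neg, map_one, ← h.sq]
    have h1 : i = -(algebraMap F K a / algebraMap F K b) := by
      field_simp
      linear_combination hab
    rw [h1]
    ring
  refine ⟨?_, hb⟩
  rw [hb, map_zero, zero_mul, add_zero] at hab
  exact (map_eq_zero _).1 hab

theorem CM.ext {a b c d : F}
    (hab : algebraMap F K a + algebraMap F K b * i = algebraMap F K c + algebraMap F K d * i) : a = c ∧ b = d := by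
  have h1 := h.zero (a := a - c) (b := b - d) (by
    rw [map_sub, map_sub]
    linear_combination hab)
  exact ⟨sub_eq_zero.1 h1.1, sub_eq_zero.1 h1.2⟩

theorem CM.surj (z : K) : ∃ a b : F, algebraMap F K a + algebraMap F K b * i = z := by
  have h1 : Function.Bijective (fun p : F × F => algebraMap F K p.1 + algebraMap F K p.2 * i) := by
    rw [Fintype.bijective_iff_injective_and_card]
    refine ⟨fun p p' hp => ?_, ?_⟩
    · obtain ⟨e1, e2⟩ := h.ext hp
      exact Prod.ext e1 e2
    · rw [Fintype.card_prod, h.card, pow_two]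
  obtain ⟨⟨a, b⟩, hab⟩ := h1.2 z
  exact ⟨a, b, hab⟩

theorem CM.ipow : i ^ Fintype.card F = -i := by
  have h1 : ∀ a : F, (algebraMap F K a) ^ Fintype.card F = algebraMap F K a := fun a => by
    rw [← map_pow, FiniteField.pow_card]
  have h2 : (i ^ Fintype.card F - i) * (i ^ Fintype.card F + i) = 0 := by
    have h3 : i ^ Fintype.card F * i ^ Fintype.card F = -1 := by
      rw [← mul_pow, h.sq]
      have h4 := h1 (-1)
      rwa [map_neg, map_one] at h4
    linear_combination h3 - h.sq
  rcases mul_eq_zero.1 h2 with h3 | h3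
  · exfalso
    obtain ⟨z, hz⟩ := exists_not_fixed h.card
    obtain ⟨a, b, rfl⟩ := h.surj z
    apply hz
    rw [add_pow_q h.card, mul_pow, h1, h1, sub_eq_zero.1 h3]
  · exact eq_neg_of_add_eq_zero_left h3

theorem CM.conj (a b : F) : (algebraMap F K a + algebraMap F K b * i) ^ Fintype.card F =
    algebraMap F K a - algebraMap F K b * i := by
  rw [add_pow_q h.card, mul_pow, ← map_pow, ← map_pow, FiniteField.pow_card, FiniteField.pow_card, h.ipow]
  ring

variable {m : ℕ}

/-- `F^(2m) = K^m` -/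
noncomputable def psi (m : ℕ) : (Fin m ⊕ Fin m → F) ≃ₗ[F] (Fin m → K) :=
  LinearEquiv.ofBijective
    { toFun := fun v j => algebraMap F K (v (.inl j)) + algebraMap F K (v (.inr j)) * i
      map_add' := fun v w => by
        funext j
        simp only [Pi.add_apply, map_add]
        ring
      map_smul' := fun c v => by
        funext j
        simp only [Pi.smul_apply, smul_eq_mul, map_mul, RingHom.id_apply, Algebra.smul_def]
        ring }
    ⟨fun v w hvw => by
      funext j
      rcases j with j | j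
      · exact (h.ext (congrFun hvw j)).1
      · exact (h.ext (congrFun hvw j)).2, fun w => by
      choose a b hab using fun j => h.surj (w j)
      exact ⟨Sum.elim a b, funext hab⟩⟩

theorem psi_apply (v : Fin m ⊕ Fin m → F) (j : Fin m) :
    psi h m v j = algebraMap F K (v (.inl j)) + algebraMap F K (v (.inr j)) * i := rfl

theorem herm_psi (u v : Fin m ⊕ Fin m → F) :
    hermForm m K (Fintype.card F) (psi h m u) (psi h m v) =
      algebraMap F K (∑ j, (u (.inl j) * v (.inl j) + u (.inr j) * v (.inr j))) +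
        algebraMap F K (sympForm m F u v) * i := by
  rw [herm_def, sympForm_eq_sum, map_sum, map_sum, Finset.sum_mul, ← Finset.sum_add_distrib]
  refine Finset.sum_congr rfl fun j _ => ?_
  rw [psi_apply, psi_apply, h.conj, map_add, map_sub, map_mul, map_mul, map_mul, map_mul]
  linear_combination (-(algebraMap F K (u (.inr j)) * algebraMap F K (v (.inr j)))) * h.sq

/-- the `F`-linear map of a `K`-linear map -/
noncomputable def tr (T : (Fin m → K) →ₗ[K] (Fin m → K)) : (Fin m ⊕ Fin m → F) →ₗ[F] (Fin m ⊕ Fin m → F) :=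
  (psi h m).symm.toLinearMap ∘ₗ (T.restrictScalars F) ∘ₗ (psi h m).toLinearMap

theorem psi_tr (T : (Fin m → K) →ₗ[K] (Fin m → K)) (v : Fin m ⊕ Fin m → F) :
    psi h m (tr h T v) = T (psi h m v) := (psi h m).apply_symm_apply _

theorem tr_form (T : (Fin m → K) →ₗ[K] (Fin m → K))
    (hT : ∀ u v, hermForm m K (Fintype.card F) (T u) (T v) = hermForm m K (Fintype.card F) u v)
    (u v : Fin m ⊕ Fin m → F) : sympForm m F (tr h T u) (tr h T v) = sympForm m F u v := by
  have h1 := hT (psi h m u) (psi h m v)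
  rw [← psi_tr, ← psi_tr, herm_psi, herm_psi] at h1
  exact (h.ext h1).2

/-- the symplectic element of a `K`-isometry -/
noncomputable def mkK (T : (Fin m → K) →ₗ[K] (Fin m → K))
    (hT : ∀ u v, hermForm m K (Fintype.card F) (T u) (T v) = hermForm m K (Fintype.card F) u v) :
    Matrix.symplecticGroup (Fin m) F :=
  ofIso (tr h T) (tr_form h T hT)

theorem psi_mkK (T : (Fin m → K) →ₗ[K] (Fin m → K))
    (hT : ∀ u v, hermForm m K (Fintype.card F) (T u) (T v) = hermForm m K (Fintype.card F) u v)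
    (v : Fin m ⊕ Fin m → F) : psi h m (mkK h T hT • v) = T (psi h m v) := by
  unfold mkK
  rw [ofIso_smul, psi_tr]

/-- multiplication by `i` -/
noncomputable def xi (m : ℕ) : Matrix.symplecticGroup (Fin m) F :=
  mkK h (i • LinearMap.id) (fun u v => by
    rw [LinearMap.smul_apply, LinearMap.smul_apply, LinearMap.id_apply, LinearMap.id_apply, herm_smul_left,
      herm_smul_right, h.ipow]
    linear_combination (-hermForm m K (Fintype.card F) u v) * h.sq)

theorem psi_xi (v : Fin m ⊕ Fin m → F) : psi h m (xi h m • v) = i • psi h m v := psi_mkK h _ _ v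

theorem xi_xi (v : Fin m ⊕ Fin m → F) : xi h m • xi h m • v = -v := by
  apply (psi h m).injective
  rw [psi_xi, psi_xi, smul_smul, h.sq, map_neg, neg_smul, one_smul]

/-- the matrix of an element of `GU` -/
def gmat (A : GU m K (Fintype.card F)) : Matrix (Fin m) (Fin m) K :=
  ((A : Matrix.GeneralLinearGroup (Fin m) K) : Matrix (Fin m) (Fin m) K)

omit h in
theorem formG (A : GU m K (Fintype.card F)) (u v : Fin m → K) :
    hermForm m K (Fintype.card F) (Matrix.toLin' (gmat A) u) (Matrix.toLin' (gmat A) v) =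
      hermForm m K (Fintype.card F) u v := by
  rw [Matrix.toLin'_apply, Matrix.toLin'_apply]
  exact A.2 u v

/-- the map `GU_m(K) → Sp_2m(F)` -/
noncomputable def kapG0 (A : GU m K (Fintype.card F)) : Matrix.symplecticGroup (Fin m) F :=
  mkK h (Matrix.toLin' (gmat A)) (formG A)

theorem psi_kapG0 (A : GU m K (Fintype.card F)) (v : Fin m ⊕ Fin m → F) : psi h m (kapG0 h A • v) =
    (gmat A).mulVec (psi h m v) := psi_mkK h _ _ v

/-- `GU_m(K) → Sp_2m(F)` -/
noncomputable def kapG (m : ℕ) : GU m K (Fintype.card F) →* Matrix.symplecticGroup (Fin m) F where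
  toFun A := kapG0 h A
  map_one' := by
    apply ext_smul
    intro v
    apply (psi h m).injective
    rw [psi_kapG0, one_smul]
    exact Matrix.one_mulVec _
  map_mul' A B := by
    apply ext_smul
    intro v
    apply (psi h m).injective
    rw [psi_kapG0, mul_smul, psi_kapG0, psi_kapG0, Matrix.mulVec_mulVec]
    rfl

theorem psi_kapG (A : GU m K (Fintype.card F)) (v : Fin m ⊕ Fin m → F) : psi h m (kapG h m A • v) =
    (gmat A).mulVec (psi h m v) := psi_kapG0 h A v

theorem kapG_injective : Function.Injective (kapG h m) := by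
  intro A B hAB
  apply Subtype.ext
  apply Units.ext
  apply Matrix.toLin'.injective
  apply LinearMap.ext
  intro w
  have h1 := psi_kapG h A ((psi h m).symm w)
  have h2 := psi_kapG h B ((psi h m).symm w)
  rw [hAB, h2, LinearEquiv.apply_symm_apply] at h1
  exact h1.symm

theorem kapG_comm (A : GU m K (Fintype.card F)) : kapG h m A * xi h m = xi h m * kapG h m A := by
  apply ext_smul
  intro v
  apply (psi h m).injective
  rw [mul_smul, mul_smul, psi_kapG, psi_xi, psi_xi, psi_kapG, Matrix.mulVec_smul]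

omit h in
theorem formS (A : SU m K (Fintype.card F)) (u v : Fin m → K) :
    hermForm m K (Fintype.card F) (Matrix.toLin' (mat A) u) (Matrix.toLin' (mat A) v) =
      hermForm m K (Fintype.card F) u v := by
  rw [Matrix.toLin'_apply, Matrix.toLin'_apply]
  exact A.2 u v

/-- the map `SU_m(K) → Sp_2m(F)` -/
noncomputable def kapS0 (A : SU m K (Fintype.card F)) : Matrix.symplecticGroup (Fin m) F :=
  mkK h (Matrix.toLin' (mat A)) (formS A)

theorem psi_kapS0 (A : SU m K (Fintype.card F)) (v : Fin m ⊕ Fin m → F) : psi h m (kapS0 h A • v) =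
    act A (psi h m v) := psi_mkK h _ _ v

/-- `SU_m(K) → Sp_2m(F)` -/
noncomputable def kapS (m : ℕ) : SU m K (Fintype.card F) →* Matrix.symplecticGroup (Fin m) F where
  toFun A := kapS0 h A
  map_one' := by
    apply ext_smul
    intro v
    apply (psi h m).injective
    rw [psi_kapS0, one_smul, act_one]
  map_mul' A B := by
    apply ext_smul
    intro v
    apply (psi h m).injective
    rw [psi_kapS0, mul_smul, psi_kapS0, psi_kapS0, act_mul]

theorem psi_kapS (A : SU m K (Fintype.card F)) (v : Fin m ⊕ Fin m → F) : psi h m (kapS h m A • v) =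
    act A (psi h m v) := psi_kapS0 h A v

theorem kapS_comm (A : SU m K (Fintype.card F)) : kapS h m A * xi h m = xi h m * kapS h m A := by
  apply ext_smul
  intro v
  apply (psi h m).injective
  rw [mul_smul, mul_smul, psi_kapS, psi_xi, psi_xi, psi_kapS, act_smul]

end

/-! ### indices -/

theorem idx_of_quot {G : Type*} [Group G] [Finite G] (hG : commutator G = ⊤) {B : ℕ}
    (hT : ∀ H : Subgroup (G ⧸ Subgroup.center G), H ≠ ⊤ → B ≤ H.index) {M : Subgroup G} (hM : M ≠ ⊤) :
    B ≤ M.index := by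
  have h1 : M.map (QuotientGroup.mk' (Subgroup.center G)) ≠ ⊤ := by
    intro h
    apply hM
    have h1 : M ⊔ Subgroup.center G = ⊤ := by
      have := congrArg (Subgroup.comap (QuotientGroup.mk' (Subgroup.center G))) h
      rwa [Subgroup.comap_map_eq, QuotientGroup.ker_mk', Subgroup.comap_top] at this
    have hn : M.Normal := by
      refine ⟨fun m hm g => ?_⟩
      have hg : g ∈ M ⊔ Subgroup.center G := by rw [h1]; exact Subgroup.mem_top g
      obtain ⟨a, ha, z, hz, rfl⟩ := Subgroup.mem_sup_of_normal_right.1 hg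
      have hz' := Subgroup.mem_center_iff.1 hz m
      have e : a * z * m * (a * z)⁻¹ = a * m * a⁻¹ := by
        rw [mul_assoc a z m, ← hz', mul_inv_rev]
        group
      rw [e]
      exact M.mul_mem (M.mul_mem ha hm) (M.inv_mem ha)
    have h2 := Subgroup.Normal.commutator_le_of_self_sup_commutative_eq_top h1 inferInstance
    rw [hG] at h2
    exact top_le_iff.mp h2
  exact (hT _ h1).trans (Nat.le_of_dvd (Nat.pos_of_ne_zero Subgroup.index_ne_zero_of_finite)
    (Subgroup.index_map_dvd _ (QuotientGroup.mk'_surjective _)))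

theorem idx_su {K : Type*} [Field K] [Fintype K] {q m : ℕ} (hK : Fintype.card K = q ^ 2) (h4 : q % 4 = 3)
    (hm : m = 3 ∨ m = 4) {M : Subgroup (SU m K q)} (hM : M ≠ ⊤) :
    (if m = 3 then q ^ 3 + 1 else (q + 1) * (q ^ 3 + 1)) ≤ M.index := by
  refine idx_of_quot (Cfsg.Agent.LieClassical.HermPerfect.commutator_SU_eq_top hK (by omega) (by omega)) ?_ hM
  rcases hm with rfl | rfl
  · rw [if_pos rfl]
    exact (Cfsg.Agent.S2148.result q hK (by omega) (by omega)).1
  · rw [if_neg (by norm_num)]
    exact (Cfsg.Agent.S2150.result q hK (by omega)).1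

/-- `diag(-1, -1, 1, ...)` -/
theorem exists_T {K : Type*} [Field K] [Fintype K] {q m : ℕ} (hK : Fintype.card K = q ^ 2) (h2 : (2 : K) ≠ 0)
    (hm : m = 3 ∨ m = 4) : ∃ T : SU m K q, (∀ v, act T (act T v) = v) ∧ (¬ ∀ v, act T v = v) ∧
      ¬ ∀ v, act T v = -v := by
  let d : Fin m → K := fun j => if (j : ℕ) < 2 then -1 else 1
  have hd : ∀ j, d j * d j ^ q = 1 := by
    intro j
    by_cases hj : (j : ℕ) < 2
    · simp only [d, if_pos hj, neg_pow_q hK, one_pow]
      norm_num
    · simp only [d, if_neg hj, one_pow, mul_one]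
  have hd2 : ∀ j, d j * d j = 1 := by
    intro j
    by_cases hj : (j : ℕ) < 2
    · simp only [d, if_pos hj]
      norm_num
    · simp only [d, if_neg hj, mul_one]
  have hdet : (Matrix.diagonal d).det = 1 := by
    rw [Matrix.det_diagonal]
    rcases hm with rfl | rfl
    · simp [d, Fin.prod_univ_succ]
    · simp [d, Fin.prod_univ_succ]
  let T : SU m K q := mkSU (Matrix.diagonal d) hdet (fun u v => by
    rw [herm_def, herm_def]
    refine Finset.sum_congr rfl fun j _ => ?_
    rw [Matrix.mulVec_diagonal, Matrix.mulVec_diagonal, mul_pow]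
    linear_combination (u j * v j ^ q) * hd j)
  have hT : ∀ v j, act T v j = d j * v j := fun v j => Matrix.mulVec_diagonal _ _ _
  refine ⟨T, fun v => ?_, fun hcon => ?_, fun hcon => ?_⟩
  · funext j
    rw [hT, hT, ← mul_assoc, hd2, one_mul]
  · have h1 := congrFun (hcon (fun _ => 1)) ⟨0, by omega⟩
    rw [hT] at h1
    simp only [d, if_pos (show ((⟨0, by omega⟩ : Fin m) : ℕ) < 2 by simp)] at h1
    apply h2
    linear_combination -h1
  · have h1 := congrFun (hcon (fun _ => 1)) ⟨2, by omega⟩
    rw [hT] at h1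
    simp only [d, if_neg (show ¬ ((⟨2, by omega⟩ : Fin m) : ℕ) < 2 by simp), Pi.neg_apply] at h1
    apply h2
    linear_combination h1

theorem num {q m : ℕ} (hq : 3 ≤ q) (hm : m = 3 ∨ m = 4) :
    q ^ (m ^ 2) * ∏ j ∈ Finset.range m, (q ^ (2 * (j + 1)) - 1) ≤
      (if m = 3 then q ^ 3 + 1 else (q + 1) * (q ^ 3 + 1)) ^ 5 *
        (q ^ (m * (m - 1) / 2) * ∏ j ∈ Finset.range m, (if Even j then q ^ (j + 1) + 1 else q ^ (j + 1) - 1)) := by
  have e1 : Even 0 := by decide
  have e2 : ¬ Even 1 := by decide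
  have e3 : Even 2 := by decide
  have e4 : ¬ Even 3 := by decide
  have hq1 : q ≤ q + 1 := by omega
  have hq3 : q ^ 3 ≤ q ^ 3 + 1 := by omega
  rcases hm with rfl | rfl
  · rw [if_pos rfl]
    simp only [Finset.prod_range_succ, Finset.prod_range_zero, one_mul, if_pos e1, if_neg e2, if_pos e3,
      Nat.reduceAdd, Nat.reduceMul, Nat.reduceSub, Nat.reduceDiv, Nat.reducePow, zero_add, pow_one]
    calc q ^ 9 * ((q ^ 2 - 1) * (q ^ 4 - 1) * (q ^ 6 - 1)) ≤ q ^ 9 * ((q ^ 2 - 1) * q ^ 4 * q ^ 6) :=
          Nat.mul_le_mul_left _ (Nat.mul_le_mul (Nat.mul_le_mul_left _ (Nat.sub_le _ _)) (Nat.sub_le _ _))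
      _ = q ^ 19 * (q ^ 2 - 1) := by ring
      _ ≤ q ^ 22 * (q ^ 2 - 1) := Nat.mul_le_mul_right _ (Nat.pow_le_pow_right (by omega) (by norm_num))
      _ = (q ^ 3) ^ 5 * (q ^ 3 * (q * (q ^ 2 - 1) * q ^ 3)) := by ring
      _ ≤ (q ^ 3 + 1) ^ 5 * (q ^ 3 * ((q + 1) * (q ^ 2 - 1) * (q ^ 3 + 1))) :=
          Nat.mul_le_mul (Nat.pow_le_pow_left hq3 5)
            (Nat.mul_le_mul_left _ (Nat.mul_le_mul (Nat.mul_le_mul_right _ hq1) hq3))
  · rw [if_neg (by norm_num)]
    simp only [Finset.prod_range_succ, Finset.prod_range_zero, one_mul, if_pos e1, if_neg e2, if_pos e3, if_neg e4,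
      Nat.reduceAdd, Nat.reduceMul, Nat.reduceSub, Nat.reduceDiv, Nat.reducePow, zero_add, pow_one]
    calc q ^ 16 * ((q ^ 2 - 1) * (q ^ 4 - 1) * (q ^ 6 - 1) * (q ^ 8 - 1)) ≤
          q ^ 16 * ((q ^ 2 - 1) * (q ^ 4 - 1) * q ^ 6 * q ^ 8) :=
          Nat.mul_le_mul_left _ (Nat.mul_le_mul (Nat.mul_le_mul_left _ (Nat.sub_le _ _)) (Nat.sub_le _ _))
      _ = (q * q ^ 3) ^ 5 * (q ^ 6 * (q * (q ^ 2 - 1) * q ^ 3 * (q ^ 4 - 1))) := by ring
      _ ≤ ((q + 1) * (q ^ 3 + 1)) ^ 5 * (q ^ 6 * ((q + 1) * (q ^ 2 - 1) * (q ^ 3 + 1) * (q ^ 4 - 1))) :=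
          Nat.mul_le_mul (Nat.pow_le_pow_left (Nat.mul_le_mul hq1 hq3) 5)
            (Nat.mul_le_mul_left _ (Nat.mul_le_mul_right _ (Nat.mul_le_mul (Nat.mul_le_mul_right _ hq1) hq3)))

/-! ### the theorem -/

theorem exists_cm {F : Type} [Field F] [Fintype F] (hsq : ¬ IsSquare (-1 : F)) :
    ∃ (K : Type) (_ : Field K) (_ : Fintype K) (_ : Algebra F K) (i : K), CM F K i := by
  classical
  open Polynomial in
  have hirr : Irreducible (X ^ 2 + 1 : F[X]) := by
    have hdeg : (X ^ 2 + 1 : F[X]).natDegree = 2 := by compute_degree!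
    apply Polynomial.irreducible_of_degree_le_three_of_not_isRoot
    · rw [hdeg]
      decide
    · intro x hx
      apply hsq
      refine ⟨x, ?_⟩
      have h1 : x ^ 2 + 1 = 0 := by simpa [IsRoot] using hx
      linear_combination -h1
  open Polynomial in
  have : Fact (Irreducible (X ^ 2 + 1 : F[X])) := ⟨hirr⟩
  open Polynomial in
  let K := AdjoinRoot (X ^ 2 + 1 : F[X])
  open Polynomial in
  let pb := AdjoinRoot.powerBasis (K := F) (f := (X ^ 2 + 1 : F[X])) hirr.ne_zero
  have : Module.Finite F K := pb.finite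
  have : Finite K := Module.finite_of_finite F
  have hft : Fintype K := Fintype.ofFinite K
  open Polynomial in
  refine ⟨K, inferInstance, hft, inferInstance, AdjoinRoot.root (X ^ 2 + 1 : F[X]), ?_, ?_, hsq⟩
  · rw [Module.card_eq_pow_finrank (K := F), pb.finrank]
    congr 1
    open Polynomial in
    have hdeg : (X ^ 2 + 1 : F[X]).natDegree = 2 := by compute_degree!
    exact hdeg
  · have h1 := AdjoinRoot.eval₂_root (Polynomial.X ^ 2 + 1 : Polynomial F)
    rw [Polynomial.eval₂_add, Polynomial.eval₂_pow, Polynomial.eval₂_X, Polynomial.eval₂_one] at h1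
    linear_combination h1

theorem kill_field {F : Type} [Field F] [Fintype F] {m : ℕ} (hm : m = 3 ∨ m = 4) (h2 : (2 : F) ≠ 0)
    (hsq : ¬ IsSquare (-1 : F)) {H : Subgroup (Matrix.symplecticGroup (Fin m) F)}
    (H0 : ∀ y ∈ H, (∀ v : Fin m ⊕ Fin m → F, y • y • v = v) → (∀ v : Fin m ⊕ Fin m → F, y • v = v) ∨
      ∀ v : Fin m ⊕ Fin m → F, y • v = -v)
    {x : Matrix.symplecticGroup (Fin m) F} (hxx : ∀ v : Fin m ⊕ Fin m → F, x • x • v = -v)
    (hE : ∀ B : Subgroup (Matrix.symplecticGroup (Fin m) F), B ≤ Subgroup.centralizer {x} →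
      H.relIndex B ^ 5 < (Subgroup.centralizer {x}).index) : False := by
  classical
  obtain ⟨K, _, _, _, i, h⟩ := exists_cm hsq
  set q := Fintype.card F with hq
  have h4 : q % 4 = 3 := h.mod4
  have h2K : (2 : K) ≠ 0 := by
    intro h0
    apply h2
    apply (algebraMap F K).injective
    rw [map_ofNat, h0, map_zero]
  obtain ⟨g, hg⟩ := Cfsg.Agent.H500.IFSp.conj_of_sq h2 hxx (xi_xi h (m := m))
  have hx : x = g⁻¹ * xi h m * g := by
    rw [← hg]
    group
  have hcent : ∀ y, y * xi h m = xi h m * y → g⁻¹ * y * g ∈ Subgroup.centralizer {x} := by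
    intro y hy
    rw [Subgroup.mem_centralizer_singleton_iff, hx]
    have e1 : g⁻¹ * y * g * (g⁻¹ * xi h m * g) = g⁻¹ * (y * xi h m) * g := by group
    have e2 : g⁻¹ * xi h m * g * (g⁻¹ * y * g) = g⁻¹ * (xi h m * y) * g := by group
    rw [e1, e2, hy]
  -- the order
  have hcard : Nat.card (GU m K q) ≤ Nat.card (Subgroup.centralizer ({x} : Set (Matrix.symplecticGroup (Fin m) F))) := by
    let φ : GU m K q → Subgroup.centralizer ({x} : Set (Matrix.symplecticGroup (Fin m) F)) := fun A =>
      ⟨g⁻¹ * kapG h m A * g, hcent _ (kapG_comm h A)⟩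
    refine Nat.card_le_card_of_injective φ fun A B hAB => ?_
    have h5 : g⁻¹ * kapG h m A * g = g⁻¹ * kapG h m B * g := congrArg Subtype.val hAB
    exact kapG_injective h (mul_left_cancel (mul_right_cancel h5))
  -- the index
  let f : SU m K q →* Matrix.symplecticGroup (Fin m) F := (MulAut.conj g⁻¹).toMonoidHom.comp (kapS h m)
  have hf : ∀ A, f A = g⁻¹ * kapS h m A * g := fun A => by
    change g⁻¹ * kapS h m A * g⁻¹⁻¹ = _
    rw [inv_inv]
  have hfv : ∀ A v, psi h m (g • f A • v) = act A (psi h m (g • v)) := by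
    intro A v
    rw [hf, mul_smul, mul_smul, smul_inv_smul, psi_kapS]
  have hle : f.range ≤ Subgroup.centralizer {x} := by
    rintro _ ⟨A, rfl⟩
    rw [hf]
    exact hcent _ (kapS_comm h A)
  obtain ⟨T, hT1, hT2, hT3⟩ := exists_T (m := m) (h.card) h2K hm
  have hne : H.comap f ≠ ⊤ := by
    intro htop
    have hTH : f T ∈ H := by
      have : T ∈ H.comap f := by rw [htop]; exact Subgroup.mem_top T
      exact this
    have hTT : ∀ v : Fin m ⊕ Fin m → F, f T • f T • v = v := by
      intro v
      have e1 : g • f T • f T • v = g • v := by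
        apply (psi h m).injective
        rw [hfv, hfv, hT1]
      exact (MulAction.injective g) e1
    have hsur : ∀ w, ∃ v, psi h m (g • v) = w := by
      intro w
      refine ⟨g⁻¹ • (psi h m).symm w, ?_⟩
      rw [smul_inv_smul, LinearEquiv.apply_symm_apply]
    rcases H0 _ hTH hTT with h5 | h5
    · apply hT2
      intro w
      obtain ⟨v, rfl⟩ := hsur w
      rw [← hfv, h5]
    · apply hT3
      intro w
      obtain ⟨v, rfl⟩ := hsur w
      rw [← hfv, h5, smul_neg', map_neg]
  have hidx := idx_su h.card h4 hm hne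
  have hrel : (H.comap f).index ≤ H.relIndex (Subgroup.centralizer {x}) := by
    rw [Subgroup.index_comap]
    exact Subgroup.relIndex_le_of_le_right hle Subgroup.index_ne_zero_of_finite
  have h6 := hE _ le_rfl
  have h7 := (Nat.pow_le_pow_left (hidx.trans hrel) 5).trans_lt h6
  have h8 := Subgroup.index_mul_card (Subgroup.centralizer ({x} : Set (Matrix.symplecticGroup (Fin m) F)))
  have h9 := Cfsg.Agent.S0245.result (F := F) hq.symm m
  have h10 := Cfsg.Agent.S0277.result (F := K) h.card m
  have h11 : (if m = 3 then q ^ 3 + 1 else (q + 1) * (q ^ 3 + 1)) ^ 5 * Nat.card (GU m K q) <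
      Nat.card (Matrix.symplecticGroup (Fin m) F) := by
    rw [← h8]
    exact Nat.mul_lt_mul_of_lt_of_le h7 hcard Nat.card_pos
  rw [h9, h10] at h11
  exact absurd (h11.trans_le (num (by omega) hm)) (lt_irrefl _)

end Cfsg.Agent.H353.IF.SpField
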