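import Mathlib
import Cfsg.Agent.H353.IF.SpField
import Cfsg.Agent.H27.IF.PhiDec

/-!
# S5719: `PSp_2m(q)`, `q ≡ 3 mod 4`, `m ≥ 5`, the elements `x² = -1` (helper353)

`kill_field_big` : by (PHI) for `SU_m(K)` (helper27): `q^(m²/4) ≤ |SU_m : Y|`, the class of `x` has at most `q^(m²+m)`
elements. `hFT` is the odd order theorem (`fun D _ _ h => Cfsg.Agent.S0205.result h`).
-/

set_option autoImplicit false
set_option linter.unusedSectionVars false

namespace Cfsg.Agent.H353.IF.SpField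

open Cfsg Module
open Cfsg.Agent.LieClassical.HermBasic Cfsg.Agent.LieClassical.HermSiegel
open Cfsg.Agent.ClassicalGeometry.SympBasic
open Cfsg.Agent.ClassicalGeometry.SympSiegel (smul_def ofIso ofIso_smul ext_smul smul_smul' smul_neg')
open Cfsg.Agent.H353.Phi (fund)

theorem prod_even {q : ℕ} (hq : 1 ≤ q) (k : ℕ) :
    ∏ i ∈ Finset.range (2 * k), (if Even i then q ^ (i + 1) - 1 else q ^ (i + 1) + 1) ≤ q ^ (k * (2 * k + 1)) := by
  induction k with
  | zero => simp
  | succ k ih =>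
    rw [show 2 * (k + 1) = 2 * k + 1 + 1 by ring, Finset.prod_range_succ, Finset.prod_range_succ,
      if_pos (by simp), if_neg (by simp)]
    have h1 : (q ^ (2 * k + 1) - 1) * (q ^ (2 * k + 1 + 1) + 1) ≤ q ^ (4 * k + 3) := by
      have h2 : 1 ≤ q ^ (2 * k + 1) := Nat.one_le_pow _ _ hq
      obtain ⟨a, ha⟩ := Nat.exists_eq_add_of_le h2
      obtain ⟨b, rfl⟩ := Nat.exists_eq_add_of_le hq
      have h3 : (1 + b) ^ (2 * k + 1 + 1) = (1 + b) ^ (2 * k + 1) * (1 + b) := pow_succ _ _
      have h4 : (1 + b) ^ (4 * k + 3) = (1 + b) ^ (2 * k + 1) * ((1 + b) ^ (2 * k + 1) * (1 + b)) := by ring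
      rw [h3, h4, ha, Nat.add_sub_cancel_left]
      nlinarith [Nat.zero_le a, Nat.zero_le b, Nat.zero_le (a * b)]
    calc _ = (∏ i ∈ Finset.range (2 * k), (if Even i then q ^ (i + 1) - 1 else q ^ (i + 1) + 1)) *
          ((q ^ (2 * k + 1) - 1) * (q ^ (2 * k + 1 + 1) + 1)) := by rw [mul_assoc]
      _ ≤ q ^ (k * (2 * k + 1)) * q ^ (4 * k + 3) := Nat.mul_le_mul ih h1
      _ = q ^ ((k + 1) * (2 * k + 1 + 1 + 1)) := by
        rw [← pow_add]
        congr 1
        ring

theorem prod_le' {q : ℕ} (hq : 1 ≤ q) (m : ℕ) :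
    ∏ i ∈ Finset.range m, (if Even i then q ^ (i + 1) - 1 else q ^ (i + 1) + 1) ≤ q ^ (m * (m - 1) / 2 + m) := by
  obtain ⟨k, rfl | rfl⟩ := Nat.even_or_odd' m
  · refine (prod_even hq k).trans (le_of_eq ?_)
    congr 1
    rcases Nat.eq_zero_or_pos k with rfl | hk
    · rfl
    · obtain ⟨j, rfl⟩ := Nat.exists_eq_add_of_le hk
      rw [mul_assoc, Nat.mul_div_cancel_left _ (by norm_num), show 2 * (1 + j) - 1 = 2 * j + 1 by omega]
      ring
  · rw [Finset.prod_range_succ, if_pos (by simp)]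
    refine (Nat.mul_le_mul (prod_even hq k) (Nat.sub_le _ _)).trans (le_of_eq ?_)
    rw [← pow_add]
    congr 1
    rw [show 2 * k + 1 - 1 = 2 * k by omega, show (2 * k + 1) * (2 * k) = 2 * ((2 * k + 1) * k) by ring,
      Nat.mul_div_cancel_left _ (by norm_num)]
    ring

theorem card_le {q : ℕ} (hq : 1 ≤ q) (m : ℕ) :
    q ^ (m ^ 2) * ∏ j ∈ Finset.range m, (q ^ (2 * (j + 1)) - 1) ≤
      q ^ (m ^ 2 + m) *
        (q ^ (m * (m - 1) / 2) * ∏ j ∈ Finset.range m, (if Even j then q ^ (j + 1) + 1 else q ^ (j + 1) - 1)) := by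
  have h1 : ∏ j ∈ Finset.range m, (q ^ (2 * (j + 1)) - 1) =
      (∏ j ∈ Finset.range m, (if Even j then q ^ (j + 1) - 1 else q ^ (j + 1) + 1)) *
        ∏ j ∈ Finset.range m, (if Even j then q ^ (j + 1) + 1 else q ^ (j + 1) - 1) := by
    rw [← Finset.prod_mul_distrib]
    refine Finset.prod_congr rfl fun j _ => ?_
    have h2 : q ^ (2 * (j + 1)) - 1 = (q ^ (j + 1) + 1) * (q ^ (j + 1) - 1) := by
      rw [mul_comm 2, pow_mul, ← Nat.sq_sub_sq, one_pow]
    by_cases hj : Even j
    · rw [if_pos hj, if_pos hj, h2, mul_comm]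
    · rw [if_neg hj, if_neg hj, h2]
  rw [h1]
  calc q ^ (m ^ 2) * ((∏ j ∈ Finset.range m, (if Even j then q ^ (j + 1) - 1 else q ^ (j + 1) + 1)) *
        ∏ j ∈ Finset.range m, (if Even j then q ^ (j + 1) + 1 else q ^ (j + 1) - 1)) ≤
      q ^ (m ^ 2) * (q ^ (m * (m - 1) / 2 + m) *
        ∏ j ∈ Finset.range m, (if Even j then q ^ (j + 1) + 1 else q ^ (j + 1) - 1)) :=
        Nat.mul_le_mul_left _ (Nat.mul_le_mul_right _ (prod_le' hq m))
    _ = _ := by
      rw [pow_add, pow_add]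
      ring

theorem exp_le {m : ℕ} (hm : 5 ≤ m) : m ^ 2 + m ≤ m ^ 2 / 4 * 5 := by
  obtain ⟨k, rfl | rfl⟩ := Nat.even_or_odd' m
  · have h1 : (2 * k) ^ 2 / 4 = k ^ 2 := by
      rw [mul_pow, show 2 ^ 2 = 4 by norm_num, Nat.mul_div_cancel_left _ (by norm_num)]
    rw [h1]
    have hk : 3 ≤ k := by omega
    nlinarith
  · have h1 : (2 * k + 1) ^ 2 / 4 = k ^ 2 + k := by
      have : (2 * k + 1) ^ 2 = 4 * (k ^ 2 + k) + 1 := by ring
      omega
    rw [h1]
    have hk : 2 ≤ k := by omega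
    nlinarith

/-- the case `x² = -1`, `-1` a nonsquare, `m ≥ 5` -/
theorem kill_field_big (hFT : ∀ (D : Type) [Group D] [Finite D], Odd (Nat.card D) → Group.IsSolvable D)
    {F : Type} [Field F] [Fintype F] {m : ℕ} (hm : 5 ≤ m) (h2 : (2 : F) ≠ 0)
    (hsq : ¬ IsSquare (-1 : F)) {H : Subgroup (Matrix.symplecticGroup (Fin m) F)}
    (H0 : ∀ y ∈ H, (∀ v : Fin m ⊕ Fin m → F, y • y • v = v) → (∀ v : Fin m ⊕ Fin m → F, y • v = v) ∨
      ∀ v : Fin m ⊕ Fin m → F, y • v = -v)
    {x : Matrix.symplecticGroup (Fin m) F} (hxx : ∀ v : Fin m ⊕ Fin m → F, x • x • v = -v)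
    (hE : ∀ B : Subgroup (Matrix.symplecticGroup (Fin m) F), B ≤ Subgroup.centralizer {x} →
      H.relIndex B ^ 5 < (Subgroup.centralizer {x}).index) : False := by
  classical
  obtain ⟨K, _, _, _, i, h⟩ := exists_cm hsq
  set q := Fintype.card F with hq
  have h4 : q % 4 = 3 := h.mod4
  have h2K : (2 : K) ≠ 0 := by
    intro h0
    apply h2
    apply (algebraMap F K).injective
    rw [map_ofNat, h0, map_zero]
  obtain ⟨g, hg⟩ := Cfsg.Agent.H500.IFSp.conj_of_sq h2 hxx (xi_xi h (m := m))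
  have hx : x = g⁻¹ * xi h m * g := by
    rw [← hg]
    group
  have hcent : ∀ y, y * xi h m = xi h m * y → g⁻¹ * y * g ∈ Subgroup.centralizer {x} := by
    intro y hy
    rw [Subgroup.mem_centralizer_singleton_iff, hx]
    have e1 : g⁻¹ * y * g * (g⁻¹ * xi h m * g) = g⁻¹ * (y * xi h m) * g := by group
    have e2 : g⁻¹ * xi h m * g * (g⁻¹ * y * g) = g⁻¹ * (xi h m * y) * g := by group
    rw [e1, e2, hy]
  -- the order
  have hcard : Nat.card (GU m K q) ≤ Nat.card (Subgroup.centralizer ({x} : Set (Matrix.symplecticGroup (Fin m) F))) := by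
    let φ : GU m K q → Subgroup.centralizer ({x} : Set (Matrix.symplecticGroup (Fin m) F)) := fun A =>
      ⟨g⁻¹ * kapG h m A * g, hcent _ (kapG_comm h A)⟩
    refine Nat.card_le_card_of_injective φ fun A B hAB => ?_
    have h5 : g⁻¹ * kapG h m A * g = g⁻¹ * kapG h m B * g := congrArg Subtype.val hAB
    exact kapG_injective h (mul_left_cancel (mul_right_cancel h5))
  -- the index
  let f : SU m K q →* Matrix.symplecticGroup (Fin m) F := (MulAut.conj g⁻¹).toMonoidHom.comp (kapS h m)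
  have hf : ∀ A, f A = g⁻¹ * kapS h m A * g := fun A => by
    change g⁻¹ * kapS h m A * g⁻¹⁻¹ = _
    rw [inv_inv]
  have hfv : ∀ A v, psi h m (g • f A • v) = act A (psi h m (g • v)) := by
    intro A v
    rw [hf, mul_smul, mul_smul, smul_inv_smul, psi_kapS]
  have hle : f.range ≤ Subgroup.centralizer {x} := by
    rintro _ ⟨A, rfl⟩
    rw [hf]
    exact hcent _ (kapS_comm h A)
  have hsur : ∀ w, ∃ v, psi h m (g • v) = w := by
    intro w
    refine ⟨g⁻¹ • (psi h m).symm w, ?_⟩
    rw [smul_inv_smul, LinearEquiv.apply_symm_apply]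
  have hB := Cfsg.Agent.H450.UF.hform h.card m
  let e := (Cfsg.Agent.H450.UF.toIso (n := m) h.card)
  have hidx : q ^ (m ^ 2 / 4) ≤ (H.comap f).index := by
    have h5 := Cfsg.Agent.H27.IF.phi_abs h.card h2K hFT hB ((H.comap f).comap e.symm.toMonoidHom) (by
      rintro z hz ⟨hz1, hz2⟩
      set A := e.symm z with hA
      have hzA : ∀ v, z.1 v = act A v := fun v => by
        rw [← Cfsg.Agent.H450.UF.toIso_apply h.card A v, hA]
        change _ = (e (e.symm z)).1 v
        rw [MulEquiv.apply_symm_apply]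
      have hAA : ∀ v, act A (act A v) = v := fun v => by
        rw [← hzA, ← hzA]
        exact LinearEquiv.congr_fun hz1 v
      have hAH : f A ∈ H := hz
      have hTT : ∀ v : Fin m ⊕ Fin m → F, f A • f A • v = v := by
        intro v
        have e1 : g • f A • f A • v = g • v := by
          apply (psi h m).injective
          rw [hfv, hfv, hAA]
        exact (MulAction.injective g) e1
      rcases H0 _ hAH hTT with h5 | h5
      · have h6 : (z.1 : (Fin m → K) →ₗ[K] (Fin m → K)) - 1 = 0 := by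
          apply LinearMap.ext
          intro w
          obtain ⟨v, rfl⟩ := hsur w
          change z.1 (psi h m (g • v)) - psi h m (g • v) = 0
          rw [hzA, ← hfv, h5, sub_self]
        rw [h6, LinearMap.range_zero, finrank_bot] at hz2
        exact absurd hz2 (by norm_num)
      · have h6 : (z.1 : (Fin m → K) →ₗ[K] (Fin m → K)) - 1 = (-2 : K) • LinearMap.id := by
          apply LinearMap.ext
          intro w
          obtain ⟨v, rfl⟩ := hsur w
          change z.1 (psi h m (g • v)) - psi h m (g • v) = (-2 : K) • psi h m (g • v)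
          rw [hzA, ← hfv, h5, smul_neg', map_neg, neg_smul, two_smul]
          abel
        rw [h6, LinearMap.range_smul _ _ (neg_ne_zero.2 h2K), LinearMap.range_id, finrank_top, finrank_fin_fun] at hz2
        omega)
    rw [finrank_fin_fun] at h5
    rwa [Subgroup.index_comap_of_surjective _ e.symm.surjective] at h5
  have hrel : (H.comap f).index ≤ H.relIndex (Subgroup.centralizer {x}) := by
    rw [Subgroup.index_comap]
    exact Subgroup.relIndex_le_of_le_right hle Subgroup.index_ne_zero_of_finite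
  have h6 := hE _ le_rfl
  have h7 := (Nat.pow_le_pow_left (hidx.trans hrel) 5).trans_lt h6
  have h8 := Subgroup.index_mul_card (Subgroup.centralizer ({x} : Set (Matrix.symplecticGroup (Fin m) F)))
  have h9 := Cfsg.Agent.S0245.result (F := F) hq.symm m
  have h10 := Cfsg.Agent.S0277.result (F := K) h.card m
  have h11 : (q ^ (m ^ 2 / 4)) ^ 5 * Nat.card (GU m K q) < Nat.card (Matrix.symplecticGroup (Fin m) F) := by
    rw [← h8]
    exact Nat.mul_lt_mul_of_lt_of_le h7 hcard Nat.card_pos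
  rw [h9, h10] at h11
  refine absurd (h11.trans_le (card_le (by omega) m)) (not_lt.2 (Nat.mul_le_mul_right _ ?_))
  rw [← pow_mul]
  exact Nat.pow_le_pow_right (by omega) (exp_le hm)

end Cfsg.Agent.H353.IF.SpField
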