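import Mathlib
import Cfsg.Agent.H353.IF.PhiSLCor
import Cfsg.Agent.LieClassical.HermSiegel
import Cfsg.Agent.S0278

/-!
# S5719: `SU_n(q)`, `q` odd, the case of type B (helper353)

`g² = μ²` with `μ^(q+1) = -1` : `V = V_μ ⊕ V_{-μ}`, both totally isotropic, so `C(g) ≥ SL_r(q²)`, `n = 2r`.
* `Hyp b` : hyperbolic bases; `emb : SL_r(F) →* SU_n` for a hyperbolic basis, `emb_injective`;
* `eig g μ` : eigenspaces; `exists_hyp` : the hyperbolic basis of eigenvectors;
* `card_SU_le` : `|SU_{2r}(q)| ≤ q^(4r²-1)`;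
* `typeB` : the theorem. `hFT` is the odd order theorem (`fun D _ _ h => Cfsg.Agent.S0205.result h`).
-/

set_option autoImplicit false

namespace Cfsg.Agent.H353.IF

open Cfsg Module Matrix
open Cfsg.Agent.LieClassical.HermBasic Cfsg.Agent.LieClassical.HermSiegel
open Cfsg.Agent.H353.Phi

/-! ### the order -/

theorem prod_le {q : ℕ} (hq : 2 ≤ q) (k : ℕ) :
    ∏ i ∈ Finset.range (2 * k + 1), (if Even i then q ^ (i + 1) + 1 else q ^ (i + 1) - 1) ≤
      (q + 1) * q ^ (2 * k ^ 2 + 3 * k) := by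
  induction k with
  | zero => simp
  | succ k ih =>
    rw [show 2 * (k + 1) + 1 = 2 * k + 1 + 1 + 1 by ring, Finset.prod_range_succ, Finset.prod_range_succ,
      if_neg (by simp), if_pos (by simp [Nat.even_add_one])]
    have h1 : (q ^ (2 * k + 1 + 1) - 1) * (q ^ (2 * k + 1 + 1 + 1) + 1) ≤ q ^ (4 * k + 5) := by
      have h2 : 1 ≤ q ^ (2 * k + 1 + 1) := Nat.one_le_pow _ _ (by omega)
      obtain ⟨a, ha⟩ := Nat.exists_eq_add_of_le h2
      have h3 : q ^ (2 * k + 1 + 1 + 1) = q ^ (2 * k + 1 + 1) * q := pow_succ _ _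
      have h4 : q ^ (4 * k + 5) = q ^ (2 * k + 1 + 1) * (q ^ (2 * k + 1 + 1) * q) := by ring
      rw [h3, h4, ha, Nat.add_sub_cancel_left]
      nlinarith [Nat.zero_le a, Nat.zero_le (a * q)]
    calc _ = (∏ i ∈ Finset.range (2 * k + 1), (if Even i then q ^ (i + 1) + 1 else q ^ (i + 1) - 1)) *
          ((q ^ (2 * k + 1 + 1) - 1) * (q ^ (2 * k + 1 + 1 + 1) + 1)) := by rw [mul_assoc]
      _ ≤ (q + 1) * q ^ (2 * k ^ 2 + 3 * k) * q ^ (4 * k + 5) := Nat.mul_le_mul ih h1
      _ = (q + 1) * q ^ (2 * (k + 1) ^ 2 + 3 * (k + 1)) := by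
        rw [mul_assoc, ← pow_add]
        congr 2
        ring

theorem card_SU_le {F : Type*} [Field F] [Fintype F] {q : ℕ} (hF : Fintype.card F = q ^ 2) {r : ℕ} (hr : 1 ≤ r) :
    Nat.card (SU (2 * r) F q) ≤ q ^ (4 * r ^ 2 - 1) := by
  have hq := two_le hF
  obtain ⟨k, rfl⟩ := Nat.exists_eq_add_of_le hr
  have h1 := Cfsg.Agent.S0278.result hF (2 * (1 + k)) (by omega)
  have h2 : ∏ i ∈ Finset.range (2 * (1 + k)), (if Even i then q ^ (i + 1) + 1 else q ^ (i + 1) - 1) ≤
      (q + 1) * q ^ (2 * k ^ 2 + 3 * k) * q ^ (2 * k + 2) := by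
    rw [show 2 * (1 + k) = 2 * k + 1 + 1 by ring, Finset.prod_range_succ, if_neg (by simp)]
    exact Nat.mul_le_mul (prod_le hq k) (Nat.sub_le _ _)
  have h3 : 2 * (1 + k) * (2 * (1 + k) - 1) / 2 = (1 + k) * (2 * k + 1) := by
    rw [show 2 * (1 + k) - 1 = 2 * k + 1 by omega, mul_assoc, Nat.mul_div_cancel_left _ (by norm_num)]
  rw [h3] at h1
  have h4 : (q + 1) * Nat.card (SU (2 * (1 + k)) F q) ≤ (q + 1) * q ^ (4 * (1 + k) ^ 2 - 1) := by
    rw [h1]
    calc _ ≤ q ^ ((1 + k) * (2 * k + 1)) * ((q + 1) * q ^ (2 * k ^ 2 + 3 * k) * q ^ (2 * k + 2)) :=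
          Nat.mul_le_mul_left _ h2
      _ = (q + 1) * q ^ ((1 + k) * (2 * k + 1) + (2 * k ^ 2 + 3 * k) + (2 * k + 2)) := by
        rw [pow_add, pow_add]
        ring
      _ = _ := by
        congr 2
        have : 4 * (1 + k) ^ 2 = 4 * k ^ 2 + 8 * k + 4 := by ring
        rw [this]
        have h5 : (1 + k) * (2 * k + 1) + (2 * k ^ 2 + 3 * k) + (2 * k + 2) = 4 * k ^ 2 + 8 * k + 3 := by ring
        omega
  exact Nat.le_of_mul_le_mul_left h4 (by omega)

/-! ### hyperbolic bases -/

section Emb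

variable {F : Type*} [Field F] [Fintype F] {q n r : ℕ}

/-- hyperbolic bases -/
structure Hyp (q : ℕ) (b : Basis (Fin r ⊕ Fin r) F (Fin n → F)) : Prop where
  ll : ∀ i j, hermForm n F q (b (.inl i)) (b (.inl j)) = 0
  lr : ∀ i j, hermForm n F q (b (.inl i)) (b (.inr j)) = if i = j then 1 else 0
  rr : ∀ i j, hermForm n F q (b (.inr i)) (b (.inr j)) = 0

/-- the block matrix of `A` -/
def blk (hF : Fintype.card F = q ^ 2) (A : Matrix.SpecialLinearGroup (Fin r) F) :
    Matrix (Fin r ⊕ Fin r) (Fin r ⊕ Fin r) F :=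
  fromBlocks (A : Matrix (Fin r) (Fin r) F) 0 0
    (((A⁻¹ : Matrix.SpecialLinearGroup (Fin r) F) : Matrix (Fin r) (Fin r) F)ᵀ.map (conj hF))

theorem blk_one (hF : Fintype.card F = q ^ 2) : blk hF (1 : Matrix.SpecialLinearGroup (Fin r) F) = 1 := by
  unfold blk
  rw [inv_one, Matrix.SpecialLinearGroup.coe_one, Matrix.transpose_one, Matrix.map_one _ (map_zero _) (map_one _),
    fromBlocks_one]

theorem blk_mul (hF : Fintype.card F = q ^ 2) (A B : Matrix.SpecialLinearGroup (Fin r) F) :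
    blk hF (A * B) = blk hF A * blk hF B := by
  unfold blk
  rw [fromBlocks_multiply, _root_.mul_inv_rev, Matrix.SpecialLinearGroup.coe_mul, Matrix.SpecialLinearGroup.coe_mul,
    Matrix.transpose_mul, Matrix.map_mul]
  simp

theorem blk_det (hF : Fintype.card F = q ^ 2) (A : Matrix.SpecialLinearGroup (Fin r) F) : (blk hF A).det = 1 := by
  unfold blk
  rw [det_fromBlocks_zero₂₁, A.2, one_mul]
  have h1 : ((((A⁻¹ : Matrix.SpecialLinearGroup (Fin r) F) : Matrix (Fin r) (Fin r) F)ᵀ.map (conj hF))).det =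
      conj hF ((((A⁻¹ : Matrix.SpecialLinearGroup (Fin r) F) : Matrix (Fin r) (Fin r) F)ᵀ).det) :=
    (RingEquiv.map_det (conj hF) _).symm
  rw [h1, det_transpose, (A⁻¹).2, map_one]

theorem blk_injective (hF : Fintype.card F = q ^ 2) :
    Function.Injective (blk hF : Matrix.SpecialLinearGroup (Fin r) F → _) := by
  intro A B h
  have h1 := (fromBlocks_inj.1 h).1
  exact Subtype.ext h1

variable (hF : Fintype.card F = q ^ 2) {b : Basis (Fin r ⊕ Fin r) F (Fin n → F)}

theorem toLin_inl (A : Matrix.SpecialLinearGroup (Fin r) F) (i : Fin r) :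
    Matrix.toLin b b (blk hF A) (b (.inl i)) = ∑ k, (A : Matrix (Fin r) (Fin r) F) k i • b (.inl k) := by
  rw [Matrix.toLin_self, Fintype.sum_sum_type]
  simp [blk]

theorem toLin_inr (A : Matrix.SpecialLinearGroup (Fin r) F) (i : Fin r) :
    Matrix.toLin b b (blk hF A) (b (.inr i)) =
      ∑ k, (((A⁻¹ : Matrix.SpecialLinearGroup (Fin r) F) : Matrix (Fin r) (Fin r) F) i k) ^ q • b (.inr k) := by
  rw [Matrix.toLin_self, Fintype.sum_sum_type]
  simp [blk, conj_apply]

theorem herm_gram (hF : Fintype.card F = q ^ 2) {ι : Type*} [Fintype ι] (c d : ι → F) (e f : ι → Fin n → F) :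
    hermForm n F q (∑ i, c i • e i) (∑ j, d j • f j) = ∑ i, ∑ j, c i * (d j ^ q * hermForm n F q (e i) (f j)) := by
  rw [herm_sum_left]
  refine Finset.sum_congr rfl fun i _ => ?_
  rw [herm_smul_left, herm_sum_right hF, Finset.mul_sum]
  exact Finset.sum_congr rfl fun j _ => by rw [herm_smul_right]

theorem toLin_herm (hb : Hyp q b) (A : Matrix.SpecialLinearGroup (Fin r) F) (u v : Fin n → F) :
    hermForm n F q (Matrix.toLin b b (blk hF A) u) (Matrix.toLin b b (blk hF A) v) = hermForm n F q u v := by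
  set T := Matrix.toLin b b (blk hF A) with hT
  have rl : ∀ i j, hermForm n F q (b (.inr i)) (b (.inl j)) = if i = j then 1 else 0 := by
    intro i j
    rw [herm_swap hF, hb.lr]
    by_cases h : i = j
    · rw [if_pos h.symm, if_pos h, one_pow]
    · rw [if_neg (Ne.symm h), if_neg h, zero_pow_q hF]
  have hinv : ∀ i j, ∑ k, (A : Matrix (Fin r) (Fin r) F) k i *
      ((A⁻¹ : Matrix.SpecialLinearGroup (Fin r) F) : Matrix (Fin r) (Fin r) F) j k = if i = j then 1 else 0 := by
    intro i j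
    have h1 : ((A⁻¹ * A : Matrix.SpecialLinearGroup (Fin r) F) : Matrix (Fin r) (Fin r) F) j i =
        if i = j then 1 else 0 := by
      rw [inv_mul_cancel, Matrix.SpecialLinearGroup.coe_one, Matrix.one_apply]
      simp only [eq_comm]
    rw [Matrix.SpecialLinearGroup.coe_mul, Matrix.mul_apply] at h1
    rw [← h1]
    exact Finset.sum_congr rfl fun k _ => mul_comm _ _
  have key : ∀ i j, hermForm n F q (T (b i)) (T (b j)) = hermForm n F q (b i) (b j) := by
    rintro (i | i) (j | j)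
    · rw [hT, toLin_inl, toLin_inl, herm_gram hF, hb.ll]
      exact Finset.sum_eq_zero fun k _ => Finset.sum_eq_zero fun l _ => by rw [hb.ll, mul_zero, mul_zero]
    · rw [hT, toLin_inl, toLin_inr, herm_gram hF, hb.lr, ← hinv]
      refine Finset.sum_congr rfl fun k _ => ?_
      rw [Finset.sum_eq_single k]
      · rw [hb.lr, if_pos rfl, mul_one, pow_q_pow_q hF]
      · intro l _ hl
        rw [hb.lr, if_neg (Ne.symm hl), mul_zero, mul_zero]
      · exact fun h => absurd (Finset.mem_univ _) h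
    · rw [hT, toLin_inl, toLin_inr, herm_gram hF, rl]
      have h2 : (∑ k, (A : Matrix (Fin r) (Fin r) F) k j *
        ((A⁻¹ : Matrix.SpecialLinearGroup (Fin r) F) : Matrix (Fin r) (Fin r) F) i k) ^ q =
          if i = j then 1 else 0 := by
        rw [hinv]
        by_cases h : i = j
        · rw [if_pos h.symm, if_pos h, one_pow]
        · rw [if_neg (Ne.symm h), if_neg h, zero_pow_q hF]
      rw [← h2, sum_pow_q hF]
      refine Finset.sum_congr rfl fun k _ => ?_
      rw [Finset.sum_eq_single k]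
      · rw [rl, if_pos rfl, mul_one, mul_pow, mul_comm]
      · intro l _ hl
        rw [rl, if_neg (Ne.symm hl), mul_zero, mul_zero]
      · exact fun h => absurd (Finset.mem_univ _) h
    · rw [hT, toLin_inr, toLin_inr, herm_gram hF, hb.rr]
      exact Finset.sum_eq_zero fun k _ => Finset.sum_eq_zero fun l _ => by rw [hb.rr, mul_zero, mul_zero]
  rw [← b.sum_repr u, ← b.sum_repr v]
  simp only [map_sum, map_smul]
  rw [herm_gram hF, herm_gram hF]
  exact Finset.sum_congr rfl fun i _ => Finset.sum_congr rfl fun j _ => by rw [key]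

/-- the embedding `SL_r(F) → SU_n` of a hyperbolic basis -/
noncomputable def emb (hb : Hyp q b) : Matrix.SpecialLinearGroup (Fin r) F →* SU n F q where
  toFun A := mkSU (LinearMap.toMatrix' (Matrix.toLin b b (blk hF A)))
    (by rw [LinearMap.det_toMatrix', LinearMap.det_toLin, blk_det])
    (fun u v => by
      rw [LinearMap.toMatrix'_mulVec, LinearMap.toMatrix'_mulVec]
      exact toLin_herm hF hb A u v)
  map_one' := by
    apply mat_injective
    rw [mat_mkSU, mat_one, blk_one, Matrix.toLin_one, LinearMap.toMatrix'_id]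
  map_mul' A B := by
    apply mat_injective
    rw [mat_mul, mat_mkSU, mat_mkSU, mat_mkSU, blk_mul, Matrix.toLin_mul b b b, LinearMap.toMatrix'_comp]

theorem act_emb (hb : Hyp q b) (A : Matrix.SpecialLinearGroup (Fin r) F) (v : Fin n → F) :
    act (emb hF hb A) v = Matrix.toLin b b (blk hF A) v := LinearMap.toMatrix'_mulVec _ _

theorem emb_injective (hb : Hyp q b) : Function.Injective (emb hF hb) := by
  intro A B h
  apply blk_injective hF
  apply (Matrix.toLin b b).injective
  apply LinearMap.ext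
  intro v
  rw [← act_emb hF hb, ← act_emb hF hb, h]

end Emb

/-! ### eigenspaces -/

section Eig

variable {F : Type*} [Field F] {q n : ℕ}

/-- eigenspaces -/
def eig (g : SU n F q) (μ : F) : Submodule F (Fin n → F) where
  carrier := {v | act g v = μ • v}
  add_mem' := fun {a c} ha hc => by
    change act g (a + c) = μ • (a + c)
    rw [act_add, ha, hc, smul_add]
  zero_mem' := by
    change act g 0 = μ • (0 : Fin n → F)
    rw [act_zero, smul_zero]
  smul_mem' := fun c v hv => by
    change act g (c • v) = μ • c • v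
    rw [act_smul, hv, smul_comm]

theorem mem_eig {g : SU n F q} {μ : F} {v : Fin n → F} : v ∈ eig g μ ↔ act g v = μ • v := Iff.rfl

theorem eig_ti (h2 : (2 : F) ≠ 0) {g : SU n F q} {μ : F} (hμ : μ ^ (q + 1) = -1) {u v : Fin n → F}
    (hu : u ∈ eig g μ) (hv : v ∈ eig g μ) : hermForm n F q u v = 0 := by
  have h := herm_act g u v
  rw [mem_eig.1 hu, mem_eig.1 hv, herm_smul_left, herm_smul_right, ← mul_assoc, ← pow_succ', hμ] at h
  have h3 : (2 : F) * hermForm n F q u v = 0 := by linear_combination -h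
  exact (mul_eq_zero.1 h3).resolve_left h2

theorem eig_decomp (h2 : (2 : F) ≠ 0) {g : SU n F q} {μ : F} (h0 : μ ≠ 0) (hg : ∀ v, act g (act g v) = (μ * μ) • v)
    (v : Fin n → F) : ∃ a ∈ eig g μ, ∃ c ∈ eig g (-μ), v = a + c := by
  have e1 : ∀ w : Fin n → F, μ⁻¹ • (μ * μ) • w = μ • w := by
    intro w
    rw [smul_smul, inv_mul_cancel_left₀ h0]
  refine ⟨(2 : F)⁻¹ • (v + μ⁻¹ • act g v), ?_, (2 : F)⁻¹ • (v - μ⁻¹ • act g v), ?_, ?_⟩
  · rw [mem_eig, act_smul, act_add, act_smul, hg, e1, smul_comm μ]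
    congr 1
    rw [smul_add, smul_smul, mul_inv_cancel₀ h0, one_smul, add_comm]
  · rw [mem_eig, act_smul, act_sub, act_smul, hg, e1, smul_comm (-μ)]
    congr 1
    rw [smul_sub, smul_smul, neg_mul, mul_inv_cancel₀ h0, neg_smul, neg_smul, one_smul]
    abel
  · rw [← smul_add, add_add_sub_cancel, ← two_smul F v, smul_smul, inv_mul_cancel₀ h2, one_smul]

variable [Fintype F]

/-- dual vectors in the opposite eigenspace -/
theorem exists_dual (hF : Fintype.card F = q ^ 2) (h2 : (2 : F) ≠ 0) {g : SU n F q} {μ : F}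
    (hμ : μ ^ (q + 1) = -1) (h0 : μ ≠ 0) (hg : ∀ v, act g (act g v) = (μ * μ) • v) {r : ℕ}
    (e : Basis (Fin r) F (eig g μ)) :
    ∃ w : Fin r → (Fin n → F), (∀ j, w j ∈ eig g (-μ)) ∧
      ∀ i j, hermForm n F q (e i : Fin n → F) (w j) = if i = j then 1 else 0 := by
  have key : ∀ j, ∃ w ∈ eig g (-μ), ∀ i, hermForm n F q (e i : Fin n → F) w = if i = j then 1 else 0 := by
    intro j
    obtain ⟨φ, hφ⟩ := LinearMap.exists_extend (e.coord j)
    obtain ⟨a, ha, c, hc, hac⟩ := eig_decomp h2 h0 hg (fun k => (φ (Pi.single k 1)) ^ q)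
    refine ⟨c, hc, fun i => ?_⟩
    have h3 : hermForm n F q (e i : Fin n → F) (fun k => (φ (Pi.single k 1)) ^ q) = φ (e i : Fin n → F) := by
      rw [herm_def]
      conv_rhs => rw [← Finset.univ_sum_single (e i : Fin n → F), map_sum]
      refine Finset.sum_congr rfl fun k _ => ?_
      rw [pow_q_pow_q hF]
      have h4 : (Pi.single k ((e i : Fin n → F) k) : Fin n → F) = (e i : Fin n → F) k • Pi.single k 1 := by
        rw [← Pi.single_smul, smul_eq_mul, mul_one]
      rw [h4, map_smul, smul_eq_mul]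
    have h5 : φ (e i : Fin n → F) = e.coord j (e i) := by
      rw [← hφ]
      rfl
    rw [hac, herm_add_right hF, eig_ti h2 hμ (e i).2 ha, zero_add, h5, Basis.coord_apply, Basis.repr_self] at h3
    rw [h3, Finsupp.single_apply]
  choose w hw hwd using key
  exact ⟨w, hw, fun i j => hwd j i⟩

theorem dual_indep (hF : Fintype.card F = q ^ 2) {r : ℕ} {e w : Fin r → (Fin n → F)}
    (h : ∀ i j, hermForm n F q (e i) (w j) = if i = j then 1 else 0) : LinearIndependent F w := by
  rw [Fintype.linearIndependent_iff]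
  intro c hc i
  have h1 : hermForm n F q (e i) (∑ j, c j • w j) = c i ^ q := by
    rw [herm_sum_right hF, Finset.sum_eq_single i]
    · rw [herm_smul_right, h, if_pos rfl, mul_one]
    · intro j _ hj
      rw [herm_smul_right, h, if_neg (Ne.symm hj), mul_zero]
    · exact fun h => absurd (Finset.mem_univ _) h
  rw [hc, herm_zero_right hF] at h1
  exact (pow_q_eq_zero hF).1 h1.symm

theorem finrank_le (hF : Fintype.card F = q ^ 2) (h2 : (2 : F) ≠ 0) {g : SU n F q} {μ : F}
    (hμ : μ ^ (q + 1) = -1) (h0 : μ ≠ 0) (hg : ∀ v, act g (act g v) = (μ * μ) • v) :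
    finrank F (eig g μ) ≤ finrank F (eig g (-μ)) := by
  obtain ⟨w, hw, hwd⟩ := exists_dual hF h2 hμ h0 hg (finBasis F (eig g μ))
  have h1 : LinearIndependent F (fun j => (⟨w j, hw j⟩ : eig g (-μ))) :=
    LinearIndependent.of_comp (eig g (-μ)).subtype (dual_indep hF hwd)
  have h3 := h1.fintype_card_le_finrank
  rwa [Fintype.card_fin] at h3

/-- the hyperbolic basis of eigenvectors -/
theorem exists_hyp (hF : Fintype.card F = q ^ 2) (hn : n ≠ 0) (ho : Odd q) (h2 : (2 : F) ≠ 0) {g : SU n F q} {μ : F}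
    (hμ : μ ^ (q + 1) = -1) (hg : ∀ v, act g (act g v) = (μ * μ) • v) :
    ∃ (r : ℕ) (_ : n = 2 * r) (b : Basis (Fin r ⊕ Fin r) F (Fin n → F)), Hyp q b ∧
      (∀ i, b (.inl i) ∈ eig g μ) ∧ ∀ i, b (.inr i) ∈ eig g (-μ) := by
  have h0 : μ ≠ 0 := by
    rintro rfl
    rw [zero_pow (by omega)] at hμ
    exact one_ne_zero (neg_eq_zero.1 hμ.symm)
  have hμ' : (-μ) ^ (q + 1) = -1 := by
    rw [Even.neg_pow (by rw [Nat.even_add_one, Nat.not_even_iff_odd]; exact ho), hμ]
  have hg' : ∀ v, act g (act g v) = (-μ * -μ) • v := by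
    intro v
    rw [hg, neg_mul_neg]
  have h3 : finrank F (eig g μ) = finrank F (eig g (-μ)) := by
    apply le_antisymm (finrank_le hF h2 hμ h0 hg)
    have h4 := finrank_le hF h2 hμ' (neg_ne_zero.2 h0) hg'
    rwa [neg_neg] at h4
  have hc : IsCompl (eig g μ) (eig g (-μ)) := by
    constructor
    · rw [Submodule.disjoint_def]
      intro v hv hv'
      have h4 : μ • v = -μ • v := (mem_eig.1 hv).symm.trans (mem_eig.1 hv')
      have h5 : (2 * μ) • v = 0 := by
        rw [two_mul, add_smul]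
        nth_rw 1 [h4]
        rw [neg_smul, neg_add_cancel]
      exact (smul_eq_zero.1 h5).resolve_left (mul_ne_zero h2 h0)
    · rw [codisjoint_iff, eq_top_iff]
      intro v _
      obtain ⟨a, ha, c, hc, rfl⟩ := eig_decomp h2 h0 hg v
      exact Submodule.add_mem_sup ha hc
  have h6 : n = 2 * finrank F (eig g μ) := by
    have h7 := Submodule.finrank_add_eq_of_isCompl hc
    rw [finrank_fin_fun, ← h3] at h7
    omega
  obtain ⟨w, hw, hwd⟩ := exists_dual hF h2 hμ h0 hg (finBasis F (eig g μ))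
  set e := finBasis F (eig g μ)
  have li : LinearIndependent F (Sum.elim (fun i => (e i : Fin n → F)) w) := by
    apply LinearIndependent.sum_type
    · exact e.linearIndependent.map' (eig g μ).subtype (Submodule.ker_subtype _)
    · exact dual_indep hF hwd
    · refine hc.disjoint.mono ?_ ?_
      · rw [Submodule.span_le]
        rintro _ ⟨i, rfl⟩
        exact (e i).2
      · rw [Submodule.span_le]
        rintro _ ⟨i, rfl⟩
        exact hw i
  have hcard : Fintype.card (Fin (finrank F (eig g μ)) ⊕ Fin (finrank F (eig g μ))) = finrank F (Fin n → F) := by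
    rw [Fintype.card_sum, Fintype.card_fin, finrank_fin_fun]
    omega
  have hr : finrank F (eig g μ) ≠ 0 := by omega
  have : Nonempty (Fin (finrank F (eig g μ)) ⊕ Fin (finrank F (eig g μ))) := ⟨.inl ⟨0, Nat.pos_of_ne_zero hr⟩⟩
  let b := basisOfLinearIndependentOfCardEqFinrank li hcard
  have hbl : ∀ i, b (.inl i) = (e i : Fin n → F) := fun i => by
    rw [coe_basisOfLinearIndependentOfCardEqFinrank]
    rfl
  have hbr : ∀ i, b (.inr i) = w i := fun i => by
    rw [coe_basisOfLinearIndependentOfCardEqFinrank]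
    rfl
  refine ⟨_, h6, b, ⟨fun i j => ?_, fun i j => ?_, fun i j => ?_⟩, fun i => ?_, fun i => ?_⟩
  · rw [hbl, hbl]
    exact eig_ti h2 hμ (e i).2 (e j).2
  · rw [hbl, hbr]
    exact hwd i j
  · rw [hbr, hbr]
    exact eig_ti h2 hμ' (hw i) (hw j)
  · rw [hbl]
    exact (e i).2
  · rw [hbr]
    exact hw i

end Eig

/-! ### the theorem -/

theorem emb_commute {F : Type*} [Field F] [Fintype F] {q n r : ℕ} (hF : Fintype.card F = q ^ 2)
    {b : Basis (Fin r ⊕ Fin r) F (Fin n → F)} (hb : Hyp q b) {g : SU n F q} {μ : F}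
    (hl : ∀ i, b (.inl i) ∈ eig g μ) (hr : ∀ i, b (.inr i) ∈ eig g (-μ)) (A : Matrix.SpecialLinearGroup (Fin r) F) :
    g * emb hF hb A = emb hF hb A * g := by
  have key : (Matrix.toLin' (mat g)).comp (Matrix.toLin b b (blk hF A)) =
      (Matrix.toLin b b (blk hF A)).comp (Matrix.toLin' (mat g)) := by
    apply b.ext
    have e1 : ∀ v, Matrix.toLin' (mat g) v = act g v := fun v => rfl
    rintro (i | i)
    · rw [LinearMap.comp_apply, LinearMap.comp_apply, e1, e1, mem_eig.1 (hl i), map_smul, toLin_inl, act_sum,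
        Finset.smul_sum]
      refine Finset.sum_congr rfl fun k _ => ?_
      rw [act_smul, mem_eig.1 (hl k), smul_comm]
    · rw [LinearMap.comp_apply, LinearMap.comp_apply, e1, e1, mem_eig.1 (hr i), map_smul, toLin_inr, act_sum,
        Finset.smul_sum]
      refine Finset.sum_congr rfl fun k _ => ?_
      rw [act_smul, mem_eig.1 (hr k), smul_comm]
  apply ext_act
  intro v
  rw [act_mul, act_mul, act_emb, act_emb]
  exact LinearMap.congr_fun key v

theorem not_center_of_mfund {F : Type*} [Field F] {r : ℕ} (hr : 3 ≤ r) {A : Matrix.SpecialLinearGroup (Fin r) F}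
    (hA : mfund A) : A ∉ Subgroup.center (Matrix.SpecialLinearGroup (Fin r) F) := by
  intro h
  obtain ⟨c, -, hc⟩ := Matrix.SpecialLinearGroup.mem_center_iff.1 h
  have h1 := hA.2
  have h2 : (A : Matrix (Fin r) (Fin r) F) - 1 = (c - 1) • (1 : Matrix (Fin r) (Fin r) F) := by
    rw [← hc, sub_smul, one_smul, Matrix.scalar_apply, Matrix.smul_one_eq_diagonal]
  rw [h2] at h1
  by_cases h3 : c - 1 = 0
  · rw [h3, zero_smul, Matrix.rank_zero] at h1
    omega
  · have h4 : ((c - 1) • (1 : Matrix (Fin r) (Fin r) F)).rank = r := by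
      rw [Matrix.rank_of_isUnit, Fintype.card_fin]
      rw [Matrix.smul_one_eq_diagonal, Matrix.isUnit_diagonal, Pi.isUnit_iff]
      exact fun _ => (Ne.isUnit h3)
    omega

/-- **type B** -/
theorem typeB (hFT : ∀ (D : Type) [Group D] [Finite D], Odd (Nat.card D) → Group.IsSolvable D)
    {F : Type} [Field F] [Fintype F] {q n : ℕ} (hF : Fintype.card F = q ^ 2) (ho : Odd q) (hn : 5 ≤ n)
    (X : Subgroup (SU n F q)) (g : SU n F q) (μ : F) (hμ : μ ^ (q + 1) = -1)
    (hg : ∀ v, act g (act g v) = (μ * μ) • v)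
    (hX : X.relIndex (Subgroup.centralizer {g}) ^ 5 * Nat.card (Subgroup.centralizer ({g} : Set (SU n F q))) <
      Nat.card (SU n F q)) : ∃ z ∈ X, z * z = 1 ∧ z ∉ Subgroup.center (SU n F q) := by
  classical
  have hq := two_le hF
  have h2 : (2 : F) ≠ 0 := by
    intro h
    have h3 : CharP F 2 := CharTwo.of_one_ne_zero_of_two_eq_zero one_ne_zero h
    have h4 : 2 ∣ Fintype.card F := (CharP.cast_eq_zero_iff F 2 _).1 (FiniteField.cast_card_eq_zero F)
    rw [hF] at h4
    have h5 := (Nat.prime_two.dvd_of_dvd_pow h4)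
    exact (Nat.not_even_iff_odd.2 ho) (even_iff_two_dvd.2 h5)
  obtain ⟨r, rfl, b, hb, hl, hr⟩ := exists_hyp hF (by omega) ho h2 hμ hg
  by_contra hcon
  push Not at hcon
  have hr3 : 3 ≤ r := by omega
  let f := emb hF hb
  have hf : Function.Injective f := emb_injective hF hb
  have hno : ∀ (Y : Subgroup (Matrix.SpecialLinearGroup (Fin r) F)), Y ≤ X.comap f →
      q ^ (r * (r - 1)) ≤ Y.index := by
    intro Y hY
    have h3 : Nat.card F ^ (Fintype.card (Fin r) * (Fintype.card (Fin r) - 1) / 2) ≤ Y.index := by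
      apply phi_mat_abs h2 hFT
      intro A hA hAY
      have h4 : f A ∈ Subgroup.center (SU (2 * r) F q) :=
        hcon (f A) (hY hAY) (by rw [← map_mul, hA.1, map_one])
      apply not_center_of_mfund hr3 hA
      rw [Subgroup.mem_center_iff] at h4 ⊢
      intro B
      apply hf
      rw [map_mul, map_mul]
      exact h4 (f B)
    rw [Nat.card_eq_fintype_card, hF, Fintype.card_fin, ← pow_mul] at h3
    rwa [Nat.mul_div_cancel' (Nat.even_mul_pred_self r).two_dvd] at h3
  have hle : f.range ≤ Subgroup.centralizer {g} := by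
    rintro _ ⟨A, rfl⟩
    rw [Subgroup.mem_centralizer_singleton_iff]
    exact (emb_commute hF hb hl hr A).symm
  have h3 : q ^ (r * (r - 1)) ≤ X.relIndex (Subgroup.centralizer {g}) := by
    refine (hno (X.comap f) le_rfl).trans ?_
    rw [relIndex_eq]
    exact Subgroup.relIndex_le_of_le_right hle Subgroup.index_ne_zero_of_finite
  have h4 : q ^ (r * (r - 1)) ≤ Nat.card (Subgroup.centralizer ({g} : Set (SU (2 * r) F q))) := by
    refine (hno ⊥ bot_le).trans ?_
    rw [Subgroup.index_bot]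
    refine le_trans ?_ (Subgroup.card_le_of_le hle)
    exact (Nat.card_congr (MonoidHom.ofInjective hf).toEquiv).le
  have h5 := card_SU_le hF (r := r) (by omega)
  have h6 : q ^ (4 * r ^ 2 - 1) ≤ q ^ (r * (r - 1) * 5 + r * (r - 1)) := by
    apply Nat.pow_le_pow_right (by omega)
    obtain ⟨s, rfl⟩ := Nat.exists_eq_add_of_le hr3
    rw [show 3 + s - 1 = s + 2 by omega]
    have : 4 * (3 + s) ^ 2 ≤ (3 + s) * (s + 2) * 5 + (3 + s) * (s + 2) := by nlinarith
    omega
  have h7 : q ^ (r * (r - 1) * 5 + r * (r - 1)) ≤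
      X.relIndex (Subgroup.centralizer {g}) ^ 5 * Nat.card (Subgroup.centralizer ({g} : Set (SU (2 * r) F q))) := by
    rw [pow_add, pow_mul]
    exact Nat.mul_le_mul (Nat.pow_le_pow_left h3 5) h4
  exact absurd (hX.trans_le (h5.trans (h6.trans h7))) (lt_irrefl _)

end Cfsg.Agent.H353.IF
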